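import Cfsg.Agent.Depth.Defs

/-!
# Finite check, ladders of primes `k 2^m + 1`

Proth's test and the cube-root test of Brillhart, Lehmer and Selfridge with the witness `3`.
-/

set_option autoImplicit false

namespace Cfsg.Agent.Depth.F

/-- one Horner step in base 128 -/
theorem horner {x k p : ℕ} (s : ℕ) (h : x ≡ 3 ^ (k >>> (s + 7)) [MOD p]) :
    Nat.mod (Nat.mul (Nat.pow x 128) (Nat.pow 3 (Nat.land (Nat.shiftRight k s) 127))) p ≡ 3 ^ (k >>> s) [MOD p] := by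
  change (x ^ 128 * 3 ^ ((k >>> s) &&& 127)) % p ≡ _ [MOD p]
  refine (Nat.mod_modEq _ _).trans ?_
  have h1 : (k >>> s) &&& 127 = (k >>> s) % 128 := Nat.and_two_pow_sub_one_eq_mod _ 7
  have h2 : k >>> (s + 7) = (k >>> s) / 128 := by
    rw [Nat.shiftRight_add, Nat.shiftRight_eq_div_pow]
  have h3 : 3 ^ (k >>> s) = (3 ^ (k >>> (s + 7))) ^ 128 * 3 ^ ((k >>> s) &&& 127) := by
    rw [h1, h2, ← pow_mul, ← pow_add]
    congr 1
    omega
  rw [h3]
  exact (h.pow 128).mul_right _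

/-- `3 ^ k mod p` -/
def pk (k p : ℕ) : ℕ :=
  Nat.mod (Nat.mul (Nat.pow
    (Nat.mod (Nat.mul (Nat.pow
      (Nat.mod (Nat.mul (Nat.pow
        (Nat.mod (Nat.mul (Nat.pow
          (Nat.mod (Nat.pow 3 (Nat.shiftRight k 28)) p)
        128) (Nat.pow 3 (Nat.land (Nat.shiftRight k 21) 127))) p)
      128) (Nat.pow 3 (Nat.land (Nat.shiftRight k 14) 127))) p)
    128) (Nat.pow 3 (Nat.land (Nat.shiftRight k 7) 127))) p)
  128) (Nat.pow 3 (Nat.land k 127))) p

theorem pk_spec (k p : ℕ) : pk k p ≡ 3 ^ k [MOD p] :=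
  horner 0 (horner 7 (horner 14 (horner 21 (Nat.mod_modEq _ _))))

theorem pw_step {x y p : ℕ} (A : ℕ) (h : x ≡ y [MOD p]) : Nat.mod (Nat.pow x A) p ≡ y ^ A [MOD p] :=
  (Nat.mod_modEq _ _).trans (h.pow A)

/-- Pocklington for the prime 2 -/
theorem dvd_pred {k m p x q : ℕ} (hx : x ≡ (3 ^ k) ^ 2 ^ m [MOD p]) (hp : p = k * 2 ^ (m + 1) + 1)
    (h : x + 1 = p) (hq : q.Prime) (hd : q ∣ p) : ∃ a, q = a * 2 ^ (m + 1) + 1 := by
  have := Fact.mk hq
  have h1 : ((x : ℕ) : ZMod q) = ((3 : ZMod q) ^ k) ^ 2 ^ m := by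
    have := (ZMod.natCast_eq_natCast_iff _ _ _).mpr (hx.of_dvd hd)
    simpa using this
  have h2 : ((x : ℕ) : ZMod q) + 1 = 0 := by
    have : ((p : ℕ) : ZMod q) = 0 := (ZMod.natCast_eq_zero_iff _ _).mpr hd
    rw [← h] at this
    simpa using this
  have h3 : ((3 : ZMod q) ^ k) ^ 2 ^ m = -1 := by
    rw [← h1]; exact eq_neg_of_add_eq_zero_left h2
  have hq2 : q ≠ 2 := by
    rintro rfl
    rw [hp, pow_succ, ← Nat.mul_assoc] at hd
    omega
  have h4 : (-1 : ZMod q) ≠ 1 := by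
    have : Fact (2 < q) := ⟨lt_of_le_of_ne hq.two_le (Ne.symm hq2)⟩
    exact ZMod.neg_one_ne_one
  have h5 : ((3 : ZMod q) ^ k) ^ 2 ^ (m + 1) = 1 := by
    rw [pow_succ, pow_mul, h3]; simp
  have h6 : orderOf ((3 : ZMod q) ^ k) = 2 ^ (m + 1) :=
    orderOf_eq_prime_pow (by rw [h3]; exact h4) h5
  have h7 : ((3 : ZMod q) ^ k) ≠ 0 := by
    intro h0
    rw [h0, zero_pow (by positivity)] at h5
    exact zero_ne_one h5
  obtain ⟨a, ha⟩ := ZMod.orderOf_dvd_card_sub_one h7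
  rw [h6] at ha
  have := hq.two_le
  exact ⟨a, by rw [Nat.mul_comm a]; omega⟩

/-- a composite number all of whose prime factors are `1 mod F` -/
theorem split {k F : ℕ} (hk : 1 ≤ k) (hF : 1 ≤ F) (h : ∀ q, q.Prime → q ∣ k * F + 1 → ∃ a, q = a * F + 1)
    (hn : ¬ (k * F + 1).Prime) : ∃ a b, 1 ≤ a ∧ 1 ≤ b ∧ k = a * b * F + (a + b) := by
  have hpos := Nat.mul_pos hk hF
  have h1 : k * F + 1 ≠ 1 := by omega
  have hp := Nat.minFac_prime h1
  have hd := Nat.minFac_dvd (k * F + 1)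
  obtain ⟨a, ha⟩ := h _ hp hd
  obtain ⟨s, hs⟩ := hd
  have h2 := hp.two_le
  have hs1 : s ≠ 1 := by
    rintro rfl
    rw [Nat.mul_one] at hs
    exact hn (hs ▸ hp)
  rw [ha] at hs h2
  have hs0 : s ≠ 0 := by
    rintro rfl
    omega
  have ha1 : 1 ≤ a := by
    rcases Nat.eq_zero_or_pos a with h0 | h0
    · subst h0; omega
    · exact h0
  obtain ⟨s, rfl⟩ : ∃ t, s = t + 1 := ⟨s - 1, by omega⟩
  have h3 : F ∣ s := by
    have h4 : k * F = a * (s + 1) * F + s := by nlinarith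
    exact (Nat.dvd_add_right (Dvd.intro_left _ rfl)).mp (h4 ▸ Dvd.intro_left _ rfl)
  obtain ⟨b, rfl⟩ := h3
  refine ⟨a, b, ha1, ?_, ?_⟩
  · rcases Nat.eq_zero_or_pos b with h0 | h0
    · subst h0; omega
    · exact h0
  · apply Nat.eq_of_mul_eq_mul_right hF
    nlinarith

/-- Proth's test -/
def ok0 (m A B k : ℕ) : Bool :=
  (fun p => and (Nat.beq (Nat.shiftRight k m) 0) (Nat.beq (Nat.succ
    (Nat.mod (Nat.pow (Nat.mod (Nat.pow (Nat.mod (Nat.pow (Nat.mod (Nat.pow (Nat.mod (Nat.pow (Nat.mod (Nat.pow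
      (pk k p) A) p) A) p) A) p) B) p) B) p) B) p)) p)) (Nat.succ (Nat.shiftLeft k m))

theorem ok0_spec {m A B : ℕ} (hm : A * (A * (A * (B * (B * B)))) = 2 ^ m) (k : ℕ) (hk : 1 ≤ k)
    (h : ok0 (m + 1) A B k = true) : (k * 2 ^ (m + 1) + 1).Prime := by
  unfold ok0 at h
  have hp : Nat.succ (Nat.shiftLeft k (m + 1)) = k * 2 ^ (m + 1) + 1 :=
    congrArg Nat.succ (Nat.shiftLeft_eq k (m + 1))
  generalize Nat.succ (Nat.shiftLeft k (m + 1)) = p at h hp
  simp only [Bool.and_eq_true] at h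
  have h0 : k / 2 ^ (m + 1) = 0 :=
    (Nat.shiftRight_eq_div_pow _ _).symm.trans (Nat.eq_of_beq_eq_true h.1)
  have h2 := Nat.eq_of_beq_eq_true h.2
  have h3 := pw_step B (pw_step B (pw_step B (pw_step A (pw_step A (pw_step A (pk_spec k p))))))
  generalize hy : 3 ^ k = y at h3
  rw [← pow_mul, ← pow_mul, ← pow_mul, ← pow_mul, ← pow_mul, hm, ← hy] at h3
  by_contra hn
  have hF : 0 < 2 ^ (m + 1) := by positivity
  obtain ⟨a, b, ha, hb, hab⟩ := split hk hF (fun q hq hd => dvd_pred h3 hp h2 hq (hp ▸ hd)) hn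
  generalize 2 ^ (m + 1) = F at *
  have h4 : k < F := by
    by_contra h5
    have := Nat.div_pos (not_lt.mp h5) hF
    omega
  have := Nat.mul_le_mul_right F (Nat.mul_pos ha hb)
  omega

/-- the mask contains all squares modulo `M + 1` -/
def SqMask (M mask : ℕ) : Prop := ∀ d, d < M + 1 → Nat.land (Nat.shiftRight mask (d * d % (M + 1))) 1 ≠ 0

/-- `c₁ ^ 2 - 4 c₂` is not a square modulo `M + 1` -/
def nsq (M mask c1 c2 : ℕ) : Bool :=
  Nat.beq (Nat.land (Nat.shiftRight mask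
    (Nat.mod (Nat.add (Nat.mul c1 c1) (Nat.mul (Nat.mul 4 M) c2)) (Nat.succ M))) 1) 0

theorem nsq_spec {M mask a b : ℕ} (hs : SqMask M mask) (h : nsq M mask (a + b) (a * b) = true) : False := by
  have h1 : Nat.land (Nat.shiftRight mask (((a + b) * (a + b) + 4 * M * (a * b)) % (M + 1))) 1 = 0 :=
    Nat.eq_of_beq_eq_true h
  have key : ∀ d, (a + b) * (a + b) + 4 * M * (a * b) = d * d + (M + 1) * (4 * (a * b)) → False := fun d hd => by
    refine hs (d % (M + 1)) (Nat.mod_lt _ (Nat.succ_pos M)) ?_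
    rw [← Nat.mul_mod, ← h1, hd, Nat.add_mul_mod_self_left]
  rcases le_total a b with h11 | h11
  · obtain ⟨d, rfl⟩ := Nat.exists_eq_add_of_le h11
    exact key d (by ring)
  · obtain ⟨d, rfl⟩ := Nat.exists_eq_add_of_le h11
    exact key d (by ring)

/-- the cube-root test -/
def ok1 (m A B C mask mask' k : ℕ) : Bool :=
  (fun p c1 c2 => and (and (Nat.beq (Nat.shiftRight c2 m) 0) (or (nsq 1154 mask c1 c2) (nsq 4198 mask' c1 c2)))
    (Nat.beq (Nat.succ (Nat.mod (Nat.pow (Nat.mod (Nat.pow (Nat.mod (Nat.pow (pk k p) A) p) B) p) C) p)) p))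
    (Nat.succ (Nat.shiftLeft k m)) (Nat.land k (Nat.pred (Nat.shiftLeft 1 m))) (Nat.shiftRight k m)

theorem ok1_spec {m A B C mask mask' : ℕ} (hm : A * (B * C) = 2 ^ m) (hs : SqMask 1154 mask)
    (hs' : SqMask 4198 mask') (k : ℕ) (hk : 1 ≤ k)
    (h : ok1 (m + 1) A B C mask mask' k = true) : (k * 2 ^ (m + 1) + 1).Prime := by
  unfold ok1 at h
  have hp : Nat.succ (Nat.shiftLeft k (m + 1)) = k * 2 ^ (m + 1) + 1 :=
    congrArg Nat.succ (Nat.shiftLeft_eq k (m + 1))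
  have hc1 : Nat.land k (Nat.pred (Nat.shiftLeft 1 (m + 1))) = k % 2 ^ (m + 1) := by
    change k &&& (1 <<< (m + 1) - 1) = _
    rw [Nat.one_shiftLeft, Nat.and_two_pow_sub_one_eq_mod]
  have hc2 : Nat.shiftRight k (m + 1) = k / 2 ^ (m + 1) := Nat.shiftRight_eq_div_pow _ _
  generalize Nat.succ (Nat.shiftLeft k (m + 1)) = p at h hp
  generalize Nat.land k (Nat.pred (Nat.shiftLeft 1 (m + 1))) = c1 at h hc1
  generalize Nat.shiftRight k (m + 1) = c2 at h hc2
  simp only [Bool.and_eq_true, Bool.or_eq_true] at h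
  have h0 : c2 / 2 ^ (m + 1) = 0 :=
    (Nat.shiftRight_eq_div_pow _ _).symm.trans (Nat.eq_of_beq_eq_true h.1.1)
  have h1 := h.1.2
  have h2 := Nat.eq_of_beq_eq_true h.2
  have h3 := pw_step C (pw_step B (pw_step A (pk_spec k p)))
  generalize hy : 3 ^ k = y at h3
  rw [← pow_mul, ← pow_mul, hm, ← hy] at h3
  by_contra hn
  have hF : 0 < 2 ^ (m + 1) := by positivity
  obtain ⟨a, b, ha, hb, hab⟩ := split hk hF (fun q hq hd => dvd_pred h3 hp h2 hq (hp ▸ hd)) hn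
  generalize 2 ^ (m + 1) = F at *
  have h4 : c2 < F := by
    by_contra h5
    have := Nat.div_pos (not_lt.mp h5) hF
    omega
  have h5 : k < F * F := by
    rw [hc2, Nat.div_lt_iff_lt_mul hF] at h4; exact h4
  have h6 : a * b < F := by
    by_contra h7
    have := Nat.mul_le_mul_right F (not_lt.mp h7)
    omega
  have h7 : a + b ≤ a * b + 1 := by
    obtain ⟨a, rfl⟩ : ∃ t, a = t + 1 := ⟨a - 1, by omega⟩
    obtain ⟨b, rfl⟩ : ∃ t, b = t + 1 := ⟨b - 1, by omega⟩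
    nlinarith [Nat.zero_le (a * b)]
  have h8 : a + b < F := by
    by_contra h9
    have h10 : F = a * b + 1 := by omega
    have h11 : F * F = a * b * F + F := by
      conv_lhs => rw [h10, Nat.add_mul, Nat.one_mul, ← h10]
    omega
  have h9 : c1 = a + b := by
    rw [hc1, hab, Nat.add_comm, Nat.add_mul_mod_self_right, Nat.mod_eq_of_lt h8]
  have h10 : c2 = a * b := by
    rw [hc2, hab, Nat.add_comm, Nat.add_mul_div_right _ _ hF, Nat.div_eq_of_lt h8, Nat.zero_add]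
  rw [h9, h10] at h1
  exact h1.elim (nsq_spec hs) (nsq_spec hs')

/-- below every `lo ≤ x < hi`, at distance at most `g`, there is a prime `≡ e (mod 10)` -/
def Lad (e g lo hi : ℕ) : Prop := ∀ x, lo ≤ x → x < hi → ∃ p, p.Prime ∧ p % 10 = e ∧ p < x ∧ x ≤ p + g

theorem Lad.app {e g a b c : ℕ} (h1 : Lad e g a b) (h2 : Lad e g b c) : Lad e g a c := fun x h3 h4 =>
  (lt_or_ge x b).elim (fun h => h1 x h3 h) (fun h => h2 x h h4)

/-- the ladder: `N` primes, the offsets are the bytes of `data`; returns the next `k`, or `0` -/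
def run (ok : ℕ → Bool) (D N : ℕ) : ℕ → ℕ → ℕ :=
  Nat.rec (motive := fun _ => ℕ → ℕ → ℕ) (fun _ k => k)
    (fun _ ih data k => cond (ok k)
      (ih (Nat.shiftRight data 8) (Nat.add k (Nat.mul 15 (Nat.sub D (Nat.land data 255))))) 0) N

theorem run_spec {ok : ℕ → Bool} {m e D : ℕ} (hok : ∀ k, 1 ≤ k → ok k = true → (k * 2 ^ (m + 1) + 1).Prime)
    (N data k k' : ℕ) (hk : 1 ≤ k) (he : (k * 2 ^ (m + 1) + 1) % 10 = e) (h : run ok D N data k = k')
    (h0 : k' ≠ 0) : Lad e (15 * D * 2 ^ (m + 1)) (k * 2 ^ (m + 1) + 2) (k' * 2 ^ (m + 1) + 2) := by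
  induction N generalizing data k with
  | zero =>
    have : k = k' := h
    subst this
    intro x h1 h2; omega
  | succ N ih =>
    have h' : cond (ok k) (run ok D N (data >>> 8) (k + 15 * (D - (data &&& 255)))) 0 = k' := h
    cases hc : ok k with
    | false => rw [hc, cond_false] at h'; exact absurd h'.symm h0
    | true =>
      rw [hc, cond_true] at h'
      generalize ht : D - (data &&& 255) = t at h'
      have htD : t ≤ D := by omega
      have e1 : (k + 15 * t) * 2 ^ (m + 1) = k * 2 ^ (m + 1) + 30 * (t * 2 ^ m) := by ring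
      have e2 : 15 * D * 2 ^ (m + 1) = 30 * (D * 2 ^ m) := by ring
      have e3 := Nat.mul_le_mul_right (2 ^ m) htD
      refine Lad.app (b := (k + 15 * t) * 2 ^ (m + 1) + 2) ?_ (ih _ _ (by omega) (by rw [e1]; omega) h')
      intro x h1 h2
      exact ⟨_, hok k hk hc, he, by omega, by omega⟩

/-- the form used by the data files -/
theorem lad_of {ok : ℕ → Bool} {m : ℕ} (hok : ∀ k, 1 ≤ k → ok k = true → (k * 2 ^ (m + 1) + 1).Prime)
    {D N data k k' : ℕ} (h : run ok D N data k = k') (e g x y : ℕ)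
    (hn : (decide (1 ≤ k) && decide ((k * 2 ^ (m + 1) + 1) % 10 = e) && decide (k' ≠ 0) &&
      decide (g = 15 * D * 2 ^ (m + 1)) && decide (x = k * 2 ^ (m + 1) + 2) &&
      decide (y = k' * 2 ^ (m + 1) + 2)) = true) : Lad e g x y := by
  simp only [Bool.and_eq_true, decide_eq_true_eq] at hn
  obtain ⟨⟨⟨⟨⟨h1, h2⟩, h3⟩, rfl⟩, rfl⟩, rfl⟩ := hn
  exact run_spec hok N data k k' h1 h2 h h3

end Cfsg.Agent.Depth.F
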