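import Cfsg.Agent.Depth.F.Bin
import Cfsg.Agent.Depth.F.Lad

/-!
# Finite check: small `n` and the assembly of the four levels
-/

set_option autoImplicit false

namespace Cfsg.Agent.Depth.F

/-- the conclusion of `Small` -/
def Out (n : ℕ) : Prop :=
  ∃ (ps : List ℕ) (r : ℕ), ps ≠ [] ∧ ps.Nodup ∧ (∀ p ∈ ps, Good p) ∧
    5 * ps.length + r ≤ 23 ∧ n = (ps.map (· + 1)).sum + r

theorem out1 {n p r : ℕ} (hp : Good p) (hr : r ≤ 18) (h : n = p + 1 + r) : Out n :=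
  ⟨[p], r, by simp, by simp, by simpa using hp, by simp; omega, by simp; omega⟩

theorem out2 {n p q r : ℕ} (hp : Good p) (hq : Good q) (h1 : p ≠ q) (hr : r ≤ 13) (h : n = p + 1 + (q + 1) + r) :
    Out n :=
  ⟨[p, q], r, by simp, by simpa using h1, by simpa using ⟨hp, hq⟩, by simp; omega, by simp; omega⟩

/-- three distinct good primes and a rest `≤ 3` -/
def Rep3 (n : ℕ) : Prop :=
  ∃ a p q r, Good a ∧ Good p ∧ Good q ∧ a ≠ p ∧ a ≠ q ∧ p ≠ q ∧ r ≤ 3 ∧ n = a + 1 + (p + 1) + (q + 1) + r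

theorem Rep3.out {n : ℕ} (h : Rep3 n) : Out n := by
  obtain ⟨a, p, q, r, ha, hp, hq, h1, h2, h3, hr, h⟩ := h
  exact ⟨[a, p, q], r, by simp, by simpa using ⟨⟨h1, h2⟩, h3⟩, by simpa using ⟨ha, hp, hq⟩, by simp; omega,
    by simp; omega⟩

theorem Rep3.out4 {n b : ℕ} (h : Rep3 n) (hb : Good b) (hn : n ≤ b) : Out (n + (b + 1)) := by
  obtain ⟨a, p, q, r, ha, hp, hq, h1, h2, h3, hr, h⟩ := h
  refine ⟨[b, a, p, q], r, by simp, ?_, by simpa using ⟨hb, ha, hp, hq⟩, by simp; omega, by simp; omega⟩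
  have h4 : b ≠ a ∧ b ≠ p ∧ b ≠ q := by omega
  simpa using ⟨h4, ⟨h1, h2⟩, h3⟩

/-- all `m ≡ 0, 4 (mod 10)` between `m₀` and `g` -/
def Bin (m₀ g : ℕ) : Prop := ∀ m, m₀ ≤ m → m ≤ g → (m % 10 = 0 ∨ m % 10 = 4) → Rep2 m

theorem bin_of {a b : ℕ} (h0 : Cov 0 a b) (h4 : Cov 4 a b) (h40 : Cov 40 a b) (h14 : Cov 14 a b)
    (h20 : Cov 20 a b) (h24 : Cov 24 a b) {m₀ g : ℕ} (h1 : 30 * a + 30 ≤ m₀) (h2 : g < 30 * b) : Bin m₀ g := by
  intro m h3 h5 h6
  have h7 : m % 30 = 0 ∨ m % 30 = 4 ∨ m % 30 = 10 ∨ m % 30 = 14 ∨ m % 30 = 20 ∨ m % 30 = 24 := by omega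
  rcases h7 with h | h | h | h | h | h
  · have := h0 (m / 30) (by omega) (by omega); rwa [show 30 * (m / 30) + 0 = m by omega] at this
  · have := h4 (m / 30) (by omega) (by omega); rwa [show 30 * (m / 30) + 4 = m by omega] at this
  · have := h40 (m / 30 - 1) (by omega) (by omega); rwa [show 30 * (m / 30 - 1) + 40 = m by omega] at this
  · have := h14 (m / 30) (by omega) (by omega); rwa [show 30 * (m / 30) + 14 = m by omega] at this
  · have := h20 (m / 30) (by omega) (by omega); rwa [show 30 * (m / 30) + 20 = m by omega] at this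
  · have := h24 (m / 30) (by omega) (by omega); rwa [show 30 * (m / 30) + 24 = m by omega] at this

theorem Lad.mono {e g a b a' b' : ℕ} (h : Lad e g a b) (h1 : a ≤ a') (h2 : b' ≤ b) : Lad e g a' b' :=
  fun M h3 h4 => h M (by omega) (by omega)

theorem level2 {m₀ g : ℕ} (h : Bin m₀ g) (n : ℕ) (h1 : m₀ + 5 ≤ n) (h2 : n ≤ g) : Out n := by
  obtain ⟨r, hr, hm⟩ : ∃ r, r ≤ 5 ∧ ((n - r) % 10 = 0 ∨ (n - r) % 10 = 4) := by
    by_cases h3 : n % 10 < 4
    · exact ⟨n % 10, by omega, by omega⟩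
    · exact ⟨n % 10 - 4, by omega, by omega⟩
  obtain ⟨p, q, h3, hp, hq, h4⟩ := h (n - r) (by omega) (by omega) hm
  exact out2 hp hq h3 (r := r) (by omega) (by omega)

theorem level3 {m₀ g t lo hi : ℕ} (h : Bin m₀ g) (h9 : Lad 9 t lo hi) (h1 : Lad 1 t lo hi)
    (h2 : m₀ + t + 2 ≤ g) (h3 : m₀ + 2 * t + 21 ≤ lo) (n : ℕ) (h4 : lo + m₀ + 3 ≤ n) (h5 : n < hi + m₀ + 3) :
    Rep3 n := by
  obtain ⟨e, r, hr, hl, he⟩ : ∃ e r, r ≤ 3 ∧ Lad e t lo hi ∧
      ((e = 9 ∧ (n % 10 = r ∨ n % 10 = r + 4)) ∨ (e = 1 ∧ n % 10 = r + 6)) := by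
    by_cases h6 : n % 10 < 4
    · exact ⟨9, n % 10, by omega, h9, by omega⟩
    by_cases h7 : n % 10 < 8
    · exact ⟨9, n % 10 - 4, by omega, h9, by omega⟩
    · exact ⟨1, n % 10 - 6, by omega, h1, by omega⟩
  obtain ⟨a, ha, h7, h8, h10⟩ := hl (n - m₀ - 3) (by omega) (by omega)
  obtain ⟨m, hm⟩ : ∃ m, n = a + 1 + m + r := ⟨n - (a + 1) - r, by omega⟩
  have h13 : m % 10 = 0 ∨ m % 10 = 4 := by
    rcases he with ⟨h, h' | h'⟩ | ⟨h, h'⟩ <;> omega
  obtain ⟨p, q, h11, hp, hq, h12⟩ := h m (by omega) (by omega) h13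
  exact ⟨a, p, q, r, ⟨ha, by omega, by omega⟩, hp, hq, by omega, by omega, h11, hr, by omega⟩

theorem level4 {n₀ L t lo hi : ℕ} (h : ∀ n, n₀ ≤ n → n < L → Rep3 n) (h9 : Lad 9 t lo hi)
    (h2 : n₀ + t ≤ L) (h3 : n₀ + 2 * t + 19 ≤ lo) (n : ℕ) (h4 : lo + n₀ ≤ n) (h5 : n < hi + n₀) : Out n := by
  obtain ⟨a, ha, h7, h8, h10⟩ := h9 (n - n₀) (by omega) (by omega)
  have := (h (n - (a + 1)) (by omega) (by omega)).out4 (b := a) ⟨ha, by omega, by omega⟩ (by omega)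
  rwa [show n - (a + 1) + (a + 1) = n by omega] at this

/-! ### small `n` -/

theorem prime_of_fac {s p : ℕ} (h1 : 2 ≤ p) (h2 : p < (s + 1) * (s + 1)) (h : Nat.gcd p s.factorial = 1) :
    p.Prime := by
  by_contra hn
  have h3 : p ≠ 1 := by omega
  have hp := Nat.minFac_prime h3
  have hs := Nat.minFac_sq_le_self (by omega) hn
  have h4 : p.minFac ≤ s := by
    by_contra h4
    have h5 : s + 1 ≤ p.minFac := by omega
    have h6 := Nat.mul_le_mul h5 h5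
    rw [sq] at hs
    omega
  have h5 := Nat.dvd_gcd (Nat.minFac_dvd p) ((Nat.Prime.dvd_factorial hp).mpr h4)
  rw [h] at h5
  have := Nat.le_of_dvd one_pos h5
  have := hp.two_le
  omega

/-- good primes below `72 ^ 2` -/
def isG (p : ℕ) : Bool :=
  and (and (Nat.ble 19 p) (or (Nat.beq (Nat.mod p 10) 1) (Nat.beq (Nat.mod p 10) 9)))
    (or (and (Nat.ble p 323) (Nat.beq (Nat.gcd p (Nat.factorial 17)) 1))
      (and (Nat.ble p 5183) (Nat.beq (Nat.gcd p (Nat.factorial 71)) 1)))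

theorem isG_spec {p : ℕ} (h : isG p = true) : Good p := by
  unfold isG at h
  simp only [Bool.and_eq_true, Bool.or_eq_true] at h
  obtain ⟨⟨h1, h2⟩, h3⟩ := h
  have h1 : 19 ≤ p := Nat.le_of_ble_eq_true h1
  refine ⟨?_, h1, h2.imp Nat.eq_of_beq_eq_true Nat.eq_of_beq_eq_true⟩
  rcases h3 with ⟨h3, h4⟩ | ⟨h3, h4⟩
  · exact prime_of_fac (s := 17) (by omega) (Nat.lt_succ_of_le (Nat.le_of_ble_eq_true h3))
      (Nat.eq_of_beq_eq_true h4)
  · exact prime_of_fac (s := 71) (by omega) (Nat.lt_succ_of_le (Nat.le_of_ble_eq_true h3))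
      (Nat.eq_of_beq_eq_true h4)

/-- `n = (p + 1) + (q + 1) + r` with `p < A < q + 1 < N`, `r < 14`, for `lo ≤ n < lo + w` -/
def smk (A N lo w : ℕ) : Bool :=
  ones (orSh (orSh (orSh 1 (fun n => and (Nat.ble (Nat.succ A) n) (isG (Nat.pred n))) N)
    (fun n => isG (Nat.pred n)) (Nat.succ A)) (fun _ => true) 14) lo w

theorem smk_spec {A N lo w : ℕ} (h : smk A N lo w = true) (n : ℕ) (h1 : lo ≤ n) (h2 : n < lo + w) : Out n := by
  obtain ⟨r, hr, -, h3, h4⟩ := orSh_spec (ones_spec h n h1 h2)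
  obtain ⟨p, hp, h5, h6, h7⟩ := orSh_spec h4
  obtain ⟨q, hq, h8, h9, h10⟩ := orSh_spec h7
  rw [Bool.and_eq_true] at h8
  have h11 : A + 1 ≤ q := Nat.le_of_ble_eq_true h8.1
  have h12 : Good (q - 1) := isG_spec h8.2
  have h13 : Good (p - 1) := isG_spec h5
  have h14 := h13.2.1
  have h15 : n - r - p - q = 0 := by
    by_contra h16
    rw [Nat.testBit_lt_two_pow (Nat.one_lt_two_pow h16)] at h10
    exact absurd h10 (by decide)
  have hp' : p < A + 1 := hp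
  exact out2 h13 h12 (r := r) (by omega) (by omega) (by omega)

theorem smk1 : smk 60 900 82 700 = true := by decide +kernel

theorem smk2 : smk 300 5100 500 4600 = true := by decide +kernel

theorem level1 (n : ℕ) (h1 : 20 ≤ n) (h2 : n < 5100) : Out n := by
  by_cases h3 : 500 ≤ n
  · exact smk_spec smk2 n h3 h2
  by_cases h4 : 82 ≤ n
  · exact smk_spec smk1 n h4 (by omega)
  by_cases h5 : n ≤ 38
  · exact out1 (p := 19) (isG_spec (by decide +kernel)) (r := n - 20) (by omega) (by omega)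
  by_cases h6 : n ≤ 50
  · exact out1 (p := 31) (isG_spec (by decide +kernel)) (r := n - 32) (by omega) (by omega)
  by_cases h7 : n ≤ 60
  · exact out1 (p := 41) (isG_spec (by decide +kernel)) (r := n - 42) (by omega) (by omega)
  by_cases h8 : n ≤ 78
  · exact out1 (p := 59) (isG_spec (by decide +kernel)) (r := n - 60) (by omega) (by omega)
  · exact out1 (p := 71) (isG_spec (by decide +kernel)) (r := n - 72) (by omega) (by omega)

end Cfsg.Agent.Depth.F
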