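import Cfsg.Agent.Depth.Defs

/-!
# Finite check, binary part: kernel checkers and their soundness

`PB e P`: the set bits of `P` are indices of primes `30 i + e - 1`; `QB s Q`: all primes `7 ≤ d ≤ s` divide `Q`;
`Cov c lo hi`: the numbers `30 M + c`, `lo ≤ M < hi`, are sums `(p+1) + (q+1)` of two distinct good primes.
-/

set_option autoImplicit false

namespace Cfsg.Agent.Depth.F

/-- `f j` for all `j < n` -/
def allB (f : ℕ → Bool) (n : ℕ) : Bool :=
  Nat.rec (motive := fun _ => Bool) true (fun j a => and (f j) a) n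

theorem allB_spec {f : ℕ → Bool} {n : ℕ} (h : allB f n = true) : ∀ j, j < n → f j = true := by
  induction n with
  | zero => intro j hj; omega
  | succ n ih =>
    have h' : (f n && allB f n) = true := h
    rw [Bool.and_eq_true] at h'
    intro j hj
    rcases Nat.lt_succ_iff_lt_or_eq.mp hj with h1 | h1
    · exact ih h'.2 j h1
    · rw [h1]; exact h'.1

/-- `f j` for all `lo ≤ j < lo + a * b` -/
def allR (f : ℕ → Bool) (lo a b : ℕ) : Bool :=
  allB (fun x => allB (fun y => f (Nat.add (Nat.add lo (Nat.mul x b)) y)) b) a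

theorem allR_spec {f : ℕ → Bool} {lo a b : ℕ} (h : allR f lo a b = true) (j : ℕ) (h1 : lo ≤ j)
    (h2 : j < lo + a * b) : f j = true := by
  have hb : 0 < b := by
    rcases Nat.eq_zero_or_pos b with h0 | h0
    · subst h0; omega
    · exact h0
  have h3 : (j - lo) / b < a := by
    rw [Nat.div_lt_iff_lt_mul hb]; omega
  have h4 := allB_spec (allB_spec h _ h3) _ (Nat.mod_lt (j - lo) hb)
  have h5 : Nat.add (Nat.add lo (Nat.mul ((j - lo) / b) b)) ((j - lo) % b) = j := by
    have := Nat.div_add_mod' (j - lo) b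
    change lo + (j - lo) / b * b + (j - lo) % b = j
    omega
  rwa [h5] at h4

/-- OR of the shifts `P <<< j` over `j < T` with `c j` -/
def orSh (P : ℕ) (c : ℕ → Bool) (T : ℕ) : ℕ :=
  Nat.rec (motive := fun _ => ℕ) 0 (fun j acc => cond (c j) (Nat.lor acc (Nat.shiftLeft P j)) acc) T

theorem orSh_spec {P : ℕ} {c : ℕ → Bool} {T t : ℕ} (h : (orSh P c T).testBit t = true) :
    ∃ j, j < T ∧ c j = true ∧ j ≤ t ∧ P.testBit (t - j) = true := by
  induction T with
  | zero => simp [orSh] at h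
  | succ T ih =>
    have h' : (cond (c T) (orSh P c T ||| P <<< T) (orSh P c T)).testBit t = true := h
    cases hc : c T with
    | false =>
      rw [hc, cond_false] at h'
      obtain ⟨j, h1, h2⟩ := ih h'
      exact ⟨j, by omega, h2⟩
    | true =>
      rw [hc, cond_true, Nat.testBit_or, Bool.or_eq_true] at h'
      rcases h' with h' | h'
      · obtain ⟨j, h1, h2⟩ := ih h'
        exact ⟨j, by omega, h2⟩
      · rw [Nat.testBit_shiftLeft, Bool.and_eq_true, decide_eq_true_eq] at h'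
        exact ⟨T, by omega, hc, h'.1, h'.2⟩

/-- the bits `lo ≤ t < lo + w` of `x` are set -/
def ones (x lo w : ℕ) : Bool :=
  (fun m => Nat.beq (Nat.land (Nat.shiftRight x lo) m) m) (Nat.pred (Nat.shiftLeft 1 w))

theorem ones_spec {x lo w : ℕ} (h : ones x lo w = true) (t : ℕ) (h1 : lo ≤ t) (h2 : t < lo + w) :
    x.testBit t = true := by
  have h' : (x >>> lo) &&& (1 <<< w - 1) = 1 <<< w - 1 := Nat.eq_of_beq_eq_true h
  rw [Nat.one_shiftLeft] at h'
  have h3 := congrArg (fun y => y.testBit (t - lo)) h'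
  simp only [Nat.testBit_and, Nat.testBit_two_pow_sub_one, Nat.testBit_shiftRight] at h3
  have h4 : t - lo < w := by omega
  have h5 : lo + (t - lo) = t := by omega
  simpa [h4, h5] using h3

/-- the four classes of `p + 1` modulo 30 -/
def Cl (e : ℕ) : Prop := e = 0 ∨ e = 2 ∨ e = 12 ∨ e = 20

def PB (e P : ℕ) : Prop := ∀ i, P.testBit i = true → 1 ≤ i ∧ (30 * i + e - 1).Prime

def QB (s Q : ℕ) : Prop := ∀ d, d.Prime → 7 ≤ d → d ≤ s → d ∣ Q

def Rep2 (m : ℕ) : Prop := ∃ p q, p ≠ q ∧ Good p ∧ Good q ∧ m = p + 1 + (q + 1)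

def Cov (c lo hi : ℕ) : Prop := ∀ M, lo ≤ M → M < hi → Rep2 (30 * M + c)

theorem Cov.app {c a b d : ℕ} (h1 : Cov c a b) (h2 : Cov c b d) : Cov c a d := fun M h3 h4 =>
  (lt_or_ge M b).elim (fun h => h1 M h3 h) (fun h => h2 M h h4)

theorem Cov.mono {c a b a' b' : ℕ} (h : Cov c a b) (h1 : a ≤ a') (h2 : b' ≤ b) : Cov c a' b' :=
  fun M h3 h4 => h M (by omega) (by omega)

theorem cl0 : Cl 0 := Or.inl rfl
theorem cl2 : Cl 2 := Or.inr (Or.inl rfl)
theorem cl12 : Cl 12 := Or.inr (Or.inr (Or.inl rfl))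
theorem cl20 : Cl 20 := Or.inr (Or.inr (Or.inr rfl))

theorem qb0 : QB 708 (Nat.factorial 708) := fun _ hd _ h => (Nat.Prime.dvd_factorial hd).mpr h

theorem good_of {e i : ℕ} (he : Cl e) (hi : 1 ≤ i) (hp : (30 * i + e - 1).Prime) : Good (30 * i + e - 1) := by
  refine ⟨hp, ?_, ?_⟩ <;> rcases he with rfl | rfl | rfl | rfl <;> omega

theorem prime_of_no {e i : ℕ} (he : Cl e) (hi : 1 ≤ i)
    (h : ∀ d, d.Prime → 7 ≤ d → d * d ≤ 30 * i + e - 1 → ¬ d ∣ 30 * i + e - 1) : (30 * i + e - 1).Prime := by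
  by_contra hn
  have h1 : 30 * i + e - 1 ≠ 1 := by omega
  have hp := Nat.minFac_prime h1
  have hd := Nat.minFac_dvd (30 * i + e - 1)
  have hs := Nat.minFac_sq_le_self (by omega) hn
  refine h _ hp ?_ (by rw [← sq]; exact hs) hd
  by_contra h7
  have h2 := hp.two_le
  generalize Nat.minFac (30 * i + e - 1) = d at hp hd h2 h7
  have h8 : d < 7 := by omega
  interval_cases d
  · rcases he with rfl | rfl | rfl | rfl <;> omega
  · rcases he with rfl | rfl | rfl | rfl <;> omega
  · norm_num at hp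
  · rcases he with rfl | rfl | rfl | rfl <;> omega
  · norm_num at hp

theorem prime_of_gcd {s Q e i : ℕ} (hQ : QB s Q) (he : Cl e) (hi : 1 ≤ i) (hs : 30 * i + e ≤ (s + 1) ^ 2)
    (h : Nat.gcd (30 * i + e - 1) Q = 1) : (30 * i + e - 1).Prime := by
  refine prime_of_no he hi fun d hd h7 h1 h2 => ?_
  have h3 : d ≤ s := by
    by_contra h4
    have h5 : s + 1 ≤ d := by omega
    have h6 := Nat.mul_le_mul h5 h5
    rw [sq] at hs
    omega
  have h4 := Nat.dvd_gcd h2 (hQ d hd h7 h3)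
  rw [h] at h4
  have := Nat.le_of_dvd one_pos h4
  omega

/-- one window -/
def win (P Q e T lo w b : ℕ) : Bool :=
  ones (orSh P (fun j => Nat.beq (Nat.gcd (Nat.pred (Nat.add (Nat.mul 30 (Nat.add b j)) e)) Q) 1) T) lo w

theorem win_spec {P Q s e₃ e₄ T lo w b : ℕ} (hP : PB e₃ P) (hQ : QB s Q) (h3 : Cl e₃) (h4 : Cl e₄)
    (hb : lo + w ≤ b) (hs : 30 * (b + T) + 20 ≤ (s + 1) ^ 2) (h : win P Q e₄ T lo w b = true) :
    Cov (e₃ + e₄) (b + lo) (b + lo + w) := by
  intro M h1 h2
  obtain ⟨j, hj, hc, hjt, ht⟩ := orSh_spec (ones_spec h (M - b) (by omega) (by omega))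
  obtain ⟨hi, hp⟩ := hP _ ht
  have hc' : Nat.gcd (30 * (b + j) + e₄ - 1) Q = 1 := Nat.eq_of_beq_eq_true hc
  have he : e₃ ≤ 20 ∧ e₄ ≤ 20 := by
    unfold Cl at h3 h4; omega
  have hq := prime_of_gcd hQ h4 (i := b + j) (by omega) (by omega) hc'
  exact ⟨_, _, by omega, good_of h3 hi hp, good_of h4 (by omega) hq, by omega⟩

/-- `K` consecutive windows -/
def wins (P Q e T lo w K : ℕ) : ℕ → Bool :=
  Nat.rec (motive := fun _ => ℕ → Bool) (fun _ => true)
    (fun _ ih b => and (win P Q e T lo w b) (ih (Nat.add b w))) K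

theorem wins_spec {P Q s e₃ e₄ T lo w : ℕ} (hP : PB e₃ P) (hQ : QB s Q) (h3 : Cl e₃) (h4 : Cl e₄) (K b : ℕ)
    (hb : lo + w ≤ b) (hs : 30 * (b + K * w + T) + 20 ≤ (s + 1) ^ 2 + 30 * w) (h : wins P Q e₄ T lo w K b = true) :
    Cov (e₃ + e₄) (b + lo) (b + lo + K * w) := by
  induction K generalizing b with
  | zero => intro M h1 h2; omega
  | succ K ih =>
    have h' : (win P Q e₄ T lo w b && wins P Q e₄ T lo w K (b + w)) = true := h
    rw [Bool.and_eq_true] at h'
    have e1 : (K + 1) * w = K * w + w := Nat.succ_mul K w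
    rw [e1] at hs ⊢
    have h5 := win_spec hP hQ h3 h4 hb (by omega) h'.1
    have h6 := ih (b + w) (by omega) (by omega) h'.2
    rw [show b + w + lo = b + lo + w by omega] at h6
    rw [show b + lo + (K * w + w) = b + lo + w + K * w by omega]
    exact h5.app h6

/-- the form used by the data files -/
theorem cov_of {P Q s e₃ e₄ : ℕ} (hP : PB e₃ P) (hQ : QB s Q) (h3 : Cl e₃) (h4 : Cl e₄) {T lo w K b : ℕ}
    (h : wins P Q e₄ T lo w K b = true) (c x y : ℕ)
    (hn : (decide (lo + w ≤ b) && decide (30 * (b + K * w + T) + 20 ≤ (s + 1) ^ 2 + 30 * w) && decide (c = e₃ + e₄) &&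
      decide (x = b + lo) && decide (y = b + lo + K * w)) = true) : Cov c x y := by
  simp only [Bool.and_eq_true, decide_eq_true_eq] at hn
  obtain ⟨⟨⟨⟨h5, h6⟩, rfl⟩, rfl⟩, rfl⟩ := hn
  exact wins_spec hP hQ h3 h4 K b h5 h6 h

/-! ### the filter that every prime `≥ 7` passes -/

def flt (W B d : ℕ) : Bool := and (Nat.beq (Nat.gcd d 30) 1) (or (Nat.ble d B) (Nat.beq (Nat.gcd d W) 1))

theorem flt_prime {B d : ℕ} (hd : d.Prime) (h7 : 7 ≤ d) : flt B.factorial B d = true := by
  have h1 : Nat.gcd d 30 = 1 := by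
    refine (Nat.Prime.coprime_iff_not_dvd hd).mpr fun h => ?_
    have h2 : d ∣ 2 * (3 * 5) := h
    rcases (Nat.Prime.dvd_mul hd).mp h2 with h3 | h3
    · have := Nat.le_of_dvd (by norm_num) h3; omega
    · rcases (Nat.Prime.dvd_mul hd).mp h3 with h4 | h4
      · have := Nat.le_of_dvd (by norm_num) h4; omega
      · have := Nat.le_of_dvd (by norm_num) h4; omega
  unfold flt
  rw [h1, Bool.and_eq_true, Bool.or_eq_true]
  refine ⟨rfl, ?_⟩
  by_cases h : d ≤ B
  · exact Or.inl (Nat.ble_eq_true_of_le h)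
  · have h2 : Nat.gcd d B.factorial = 1 :=
      (Nat.Prime.coprime_iff_not_dvd hd).mpr fun h3 => h ((Nat.Prime.dvd_factorial hd).mp h3)
    rw [h2]; exact Or.inr rfl

def qchk (Q W B d : ℕ) : Bool := cond (flt W B d) (Nat.beq (Nat.mod Q d) 0) true

theorem qb_of {Q B s : ℕ} (h : ∀ d, 7 ≤ d → d ≤ s → qchk Q B.factorial B d = true) : QB s Q := by
  intro d hd h7 hs
  have h1 := h d h7 hs
  unfold qchk at h1
  rw [flt_prime hd h7, cond_true] at h1
  exact Nat.dvd_of_mod_eq_zero (Nat.eq_of_beq_eq_true h1)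

/-! ### the sieve -/

/-- bits `d * t`, `t < 2 ^ r` -/
def per (d r : ℕ) : ℕ :=
  Nat.rec (motive := fun _ => ℕ) 1 (fun k m => Nat.lor m (Nat.shiftLeft m (Nat.shiftLeft d k))) r

theorem per_spec (d r t : ℕ) (h : t < 2 ^ r) : (per d r).testBit (d * t) = true := by
  induction r generalizing t with
  | zero =>
    have : t = 0 := by simpa using h
    subst this; rw [Nat.mul_zero]; exact (by decide : Nat.testBit 1 0 = true)
  | succ r ih =>
    change (per d r ||| per d r <<< (d <<< r)).testBit (d * t) = true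
    rw [Nat.testBit_or, Bool.or_eq_true]
    by_cases h1 : t < 2 ^ r
    · exact Or.inl (ih t h1)
    · right
      obtain ⟨u, rfl⟩ : ∃ u, t = 2 ^ r + u := ⟨t - 2 ^ r, by omega⟩
      rw [Nat.testBit_shiftLeft, Nat.shiftLeft_eq, Nat.mul_add, Nat.add_sub_cancel_left, Bool.and_eq_true,
        decide_eq_true_eq]
      exact ⟨by omega, ih u (by rw [pow_succ] at h; omega)⟩

/-- no set bit `i` of `P` has `d ∣ 30 i + e - 1 ≠ d` -/
def sv1 (P e len d u : ℕ) : Bool :=
  (fun i0 r => and (and (Nat.ble u 31) (Nat.beq (Nat.succ (Nat.mul d u)) (Nat.add (Nat.mul 30 i0) e)))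
      (and (Nat.ble len (Nat.shiftLeft d r)) (Nat.beq (Nat.land (Nat.shiftRight P i0) (per d r)) 0)))
    (Nat.div (Nat.sub (Nat.succ (Nat.mul d u)) e) 30) (Nat.succ (Nat.log2 (Nat.div len d)))

theorem sv1_spec {P e len d u i : ℕ} (h : sv1 P e len d u = true) (hd : d.Prime) (h7 : 7 ≤ d) (hi : 1 ≤ i)
    (hl : i < len) (hb : P.testBit i = true) (h1 : d * d ≤ 30 * i + e - 1) : ¬ d ∣ 30 * i + e - 1 := by
  intro h2
  unfold sv1 at h
  generalize Nat.div (Nat.sub (Nat.succ (Nat.mul d u)) e) 30 = i0 at h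
  generalize Nat.succ (Nat.log2 (Nat.div len d)) = r at h
  simp only [Bool.and_eq_true] at h
  obtain ⟨⟨h3, h4⟩, h5, h6⟩ := h
  have h3 : u ≤ 31 := Nat.le_of_ble_eq_true h3
  have h4 : d * u + 1 = 30 * i0 + e := Nat.eq_of_beq_eq_true h4
  have h5 : len ≤ d <<< r := Nat.le_of_ble_eq_true h5
  have h6 : (P >>> i0) &&& per d r = 0 := Nat.eq_of_beq_eq_true h6
  rw [Nat.shiftLeft_eq] at h5
  have hc : Nat.Coprime d 30 := by
    have := flt_prime (B := 0) hd h7
    unfold flt at this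
    rw [Bool.and_eq_true] at this
    exact Nat.eq_of_beq_eq_true this.1
  obtain ⟨v, hv⟩ := h2
  rcases le_or_gt i0 i with h8 | h8
  · have h9 : d ∣ 30 * (i - i0) := by
      have : 30 * (i - i0) = d * v - d * u := by omega
      rw [this]; exact Nat.dvd_sub (Dvd.intro _ rfl) (Dvd.intro _ rfl)
    obtain ⟨t, ht⟩ := hc.dvd_of_dvd_mul_left h9
    have h10 : t < 2 ^ r := by
      by_contra h11
      have := Nat.mul_le_mul_left d (not_lt.mp h11)
      omega
    have h11 := congrArg (fun y => y.testBit (d * t)) h6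
    simp only [Nat.testBit_and, Nat.testBit_shiftRight, per_spec d r t h10, Nat.zero_testBit] at h11
    rw [show i0 + d * t = i by omega, hb] at h11
    exact absurd h11 (by decide)
  · have h9 : d ∣ 30 * (i0 - i) := by
      have : 30 * (i0 - i) = d * u - d * v := by omega
      rw [this]; exact Nat.dvd_sub (Dvd.intro _ rfl) (Dvd.intro _ rfl)
    have h10 := Nat.le_of_dvd (by omega) (hc.dvd_of_dvd_mul_left h9)
    have h11 := Nat.mul_le_mul_left d h3
    have h12 := Nat.mul_le_mul_left d h7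
    omega

def schk (P e len W B d : ℕ) : Bool :=
  cond (flt W B d)
    ((fun u => sv1 P e len d (cond (Nat.beq u 1) 31 u)) (Nat.mod (Nat.mul (Nat.add e 29) (Nat.pow d 3)) 30)) true

theorem pb_of {P e len B s : ℕ} (he : Cl e) (h0 : Nat.land P 1 = 0) (h1 : Nat.shiftRight P len = 0)
    (hs : 30 * len + 20 ≤ (s + 1) ^ 2) (h : ∀ d, 7 ≤ d → d ≤ s → schk P e len B.factorial B d = true) :
    PB e P := by
  intro i hb
  have hi : 1 ≤ i := by
    rcases Nat.eq_zero_or_pos i with h2 | h2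
    · subst h2
      have h3 := congrArg (fun y => y.testBit 0) (show P &&& 1 = 0 from h0)
      simp only [Nat.testBit_and, hb, Nat.zero_testBit] at h3
      exact absurd h3 (by decide)
    · exact h2
  have hl : i < len := by
    by_contra h2
    have h3 := congrArg (fun y => y.testBit (i - len)) (show P >>> len = 0 from h1)
    simp only [Nat.testBit_shiftRight, Nat.zero_testBit] at h3
    rw [show len + (i - len) = i by omega, hb] at h3
    exact absurd h3 (by decide)
  refine ⟨hi, prime_of_no he hi fun d hd h7 h2 => ?_⟩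
  have he' : e ≤ 20 := by unfold Cl at he; omega
  have h3 : d ≤ s := by
    by_contra h4
    have h5 : s + 1 ≤ d := by omega
    have h6 := Nat.mul_le_mul h5 h5
    rw [sq] at hs
    omega
  have h4 := h d h7 h3
  unfold schk at h4
  rw [flt_prime hd h7, cond_true] at h4
  exact sv1_spec h4 hd h7 hi hl hb h2

end Cfsg.Agent.Depth.F
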